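import Cfsg.Agent.H318.RG.Num

/-!
# The numbers for `E7(q)` (S3509, helper378)
-/

set_option autoImplicit false

namespace Cfsg.Agent.H378.RC

open Cfsg.Agent.H318.RG

/-- the bound for the centralisers -/
def B7 (q r : ℕ) : ℕ := if q = 2 then (if r = 3 then 0 else 2 ^ 27 * 3) else 2 * ((q + 1) ^ 14 * q ^ 7)

/-- the largest one -/
def Bm7 (q : ℕ) : ℕ := if q = 2 then 2 ^ 27 * 3 else 2 * ((q + 1) ^ 14 * q ^ 7)

theorem B7_le (q r : ℕ) : B7 q r ≤ Bm7 q := by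
  unfold B7 Bm7
  split_ifs <;> norm_num

theorem succ_le_two_pow (q : ℕ) : q + 1 ≤ 2 ^ q := Nat.lt_two_pow_self

theorem poly {q : ℕ} (hq : 3 ≤ q) : (7 * q + 1) * (1 + 2 * ((q + 1) ^ 7 * q ^ 4)) < q ^ 15 * (q ^ 2 - 1) := by
  have h1 : 2187 * (q + 1) ^ 7 ≤ 16384 * q ^ 7 := by
    have h2 : (3 * (q + 1)) ^ 7 ≤ (4 * q) ^ 7 := Nat.pow_le_pow_left (by omega) 7
    rw [mul_pow, mul_pow] at h2
    norm_num at h2
    exact h2
  have h3 : 8 * q ^ 2 ≤ 9 * (q ^ 2 - 1) := by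
    have : 3 ^ 2 ≤ q ^ 2 := Nat.pow_le_pow_left hq 2
    omega
  have h4 : 243 ≤ q ^ 5 := by
    calc 243 = 3 ^ 5 := by norm_num
      _ ≤ q ^ 5 := Nat.pow_le_pow_left hq 5
  have h5 : 2187 ≤ q ^ 11 := by
    calc 2187 ≤ 3 ^ 11 := by norm_num
      _ ≤ q ^ 11 := Nat.pow_le_pow_left hq 11
  have h6 : 59049 * ((7 * q + 1) * (1 + 2 * ((q + 1) ^ 7 * q ^ 4))) ≤ 6488262 * q ^ 12 := by
    have e1 : 59049 * ((7 * q + 1) * (1 + 2 * ((q + 1) ^ 7 * q ^ 4))) =
        9 * ((3 * (7 * q + 1)) * (2187 + 2 * (2187 * (q + 1) ^ 7 * q ^ 4))) := by ring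
    rw [e1]
    have h7 : 2187 + 2 * (2187 * (q + 1) ^ 7 * q ^ 4) ≤ 32769 * q ^ 11 := by
      have h8 : 2187 * (q + 1) ^ 7 * q ^ 4 ≤ 16384 * q ^ 7 * q ^ 4 := Nat.mul_le_mul_right _ h1
      have e2 : 16384 * q ^ 7 * q ^ 4 = 16384 * q ^ 11 := by ring
      omega
    calc 9 * ((3 * (7 * q + 1)) * (2187 + 2 * (2187 * (q + 1) ^ 7 * q ^ 4)))
        ≤ 9 * ((22 * q) * (32769 * q ^ 11)) := Nat.mul_le_mul_left _ (Nat.mul_le_mul (by omega) h7)
      _ = 6488262 * q ^ 12 := by ring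
  have h9 : 12754584 * q ^ 12 ≤ 59049 * (q ^ 15 * (q ^ 2 - 1)) := by
    calc 12754584 * q ^ 12 = 52488 * (243 * q ^ 12) := by ring
      _ ≤ 52488 * (q ^ 5 * q ^ 12) := Nat.mul_le_mul_left _ (Nat.mul_le_mul_right _ h4)
      _ = 6561 * (q ^ 15 * (8 * q ^ 2)) := by ring
      _ ≤ 6561 * (q ^ 15 * (9 * (q ^ 2 - 1))) := Nat.mul_le_mul_left _ (Nat.mul_le_mul_left _ h3)
      _ = 59049 * (q ^ 15 * (q ^ 2 - 1)) := by ring
  have h10 : 0 < q ^ 12 := by positivity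
  omega

theorem card_le_of {q : ℕ} {P : Finset ℕ} (hP : ∀ r ∈ P, r.Prime) (hprod : ∏ r ∈ P, r ≤ (q + 1) ^ 7) :
    P.card ≤ 7 * q := by
  have h1 := (two_pow_le hP).trans hprod
  have h2 : (q + 1) ^ 7 ≤ (2 ^ q) ^ 7 := Nat.pow_le_pow_left (succ_le_two_pow q) 7
  rw [← pow_mul] at h2
  have h3 := h1.trans h2
  have h4 := (Nat.pow_le_pow_iff_right (by norm_num : 1 < 2)).1 h3
  omega

theorem card_two {P : Finset ℕ} (hP : ∀ r ∈ P, r.Prime ∧ r ≠ 2 ∧ r ≠ 3) (hprod : ∏ r ∈ P, r ≤ (2 + 1) ^ 7) :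
    P.card < 4 := by
  refine card_lt_of (S := {5, 7, 11}) (m := 13) (C := (2 + 1) ^ 7) (fun r hr => ?_) (by norm_num)
    hprod (by decide)
  by_contra h
  push Not at h
  obtain ⟨h1, h2⟩ := h
  obtain ⟨h3, h4, h5⟩ := hP r hr
  interval_cases r <;> simp_all (config := {decide := true})

/-- **The numbers.** -/
theorem num7 {q d : ℕ} (hq : 2 ≤ q) (hd : q ^ 15 * (q ^ 2 - 1) ≤ d) {P : Finset ℕ}
    (hP : ∀ r ∈ P, r.Prime) (h2 : q = 2 → ∀ r ∈ P, r ≠ 2) (hprod : ∏ r ∈ P, r ≤ (q + 1) ^ 7) :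
    ∑ r ∈ P, FB d (B7 q r) + FB d (Bm7 q) < 1 := by
  classical
  by_cases hq2 : q = 2
  · subst hq2
    have hd' : 98304 ≤ d := by
      refine le_trans ?_ hd
      norm_num
    have hdpos : 0 < d := by omega
    have hdR : (98304 : ℝ) ≤ d := by exact_mod_cast hd'
    have hb : FB d (2 ^ 27 * 3) ≤ 20068 / 98304 := by
      refine (FB_anti (d := 98304) (by norm_num) hd').trans ?_
      refine (FB_le (c := 20067) (by norm_num) (by norm_num) (by norm_num)).trans (by norm_num)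
    have hb0 : FB d 0 ≤ 1 / 98304 := by
      refine (FB_anti (d := 98304) (by norm_num) hd').trans ?_
      refine (FB_le (c := 0) (by norm_num) (by norm_num) (by norm_num)).trans (by norm_num)
    have hc : (P.erase 3).card < 4 := by
      refine card_two (fun r hr => ⟨hP r (Finset.mem_of_mem_erase hr), h2 rfl r (Finset.mem_of_mem_erase hr),
        Finset.ne_of_mem_erase hr⟩) (le_trans ?_ hprod)
      exact Finset.prod_le_prod_of_subset_of_one_le' (Finset.erase_subset _ _) fun r hr _ => (hP r hr).one_le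
    have hs : ∑ r ∈ P, FB d (B7 2 r) ≤ ∑ r ∈ P.erase 3, FB d (B7 2 r) + 1 / 98304 := by
      by_cases h3 : 3 ∈ P
      · rw [← Finset.add_sum_erase P _ h3]
        have e : B7 2 3 = 0 := rfl
        rw [e]
        linarith
      · rw [Finset.erase_eq_of_notMem h3]
        norm_num
    have hs2 : ∑ r ∈ P.erase 3, FB d (B7 2 r) ≤ (P.erase 3).card • (20068 / 98304 : ℝ) := by
      refine Finset.sum_le_card_nsmul _ _ _ fun r hr => ?_
      have e : B7 2 r = 2 ^ 27 * 3 := by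
        unfold B7
        rw [if_pos rfl, if_neg (Finset.ne_of_mem_erase hr)]
      rw [e]
      exact hb
    have hs3 : (P.erase 3).card • (20068 / 98304 : ℝ) ≤ 3 * (20068 / 98304) := by
      rw [nsmul_eq_mul]
      refine mul_le_mul_of_nonneg_right ?_ (by norm_num)
      exact_mod_cast Nat.lt_succ_iff.1 hc
    have e : Bm7 2 = 2 ^ 27 * 3 := rfl
    rw [e]
    have h9 : (3 * (20068 / 98304) + 1 / 98304 + 20068 / 98304 : ℝ) < 1 := by norm_num
    have h10 := hs2.trans hs3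
    calc _ ≤ (∑ r ∈ P.erase 3, FB d (B7 2 r) + 1 / 98304) + 20068 / 98304 := add_le_add hs hb
      _ ≤ (3 * (20068 / 98304) + 1 / 98304) + 20068 / 98304 := by gcongr
      _ < 1 := h9
  · have hq3 : 3 ≤ q := by omega
    have hq9 : 3 ^ 2 ≤ q ^ 2 := Nat.pow_le_pow_left hq3 2
    have hd0 : 0 < q ^ 15 * (q ^ 2 - 1) := Nat.mul_pos (by positivity) (by omega)
    set B := 2 * ((q + 1) ^ 14 * q ^ 7) with hB
    set c := 2 * ((q + 1) ^ 7 * q ^ 4) with hc
    have hBc : B ≤ c ^ 2 := by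
      rw [hB, hc]
      have e : (2 * ((q + 1) ^ 7 * q ^ 4)) ^ 2 = (2 * q) * (2 * ((q + 1) ^ 14 * q ^ 7)) := by ring
      rw [e]
      exact Nat.le_mul_of_pos_left _ (by omega)
    have hF : FB d B ≤ (1 + (c : ℝ)) / d := by
      refine FB_le (lt_of_lt_of_le hd0 hd) (Nat.cast_nonneg _) ?_
      exact_mod_cast hBc
    have e1 : ∀ r, B7 q r = B := fun r => by unfold B7; rw [if_neg hq2]
    have e2 : Bm7 q = B := by unfold Bm7; rw [if_neg hq2]
    simp only [e1, e2, Finset.sum_const, nsmul_eq_mul]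
    have hdR : (0 : ℝ) < d := by exact_mod_cast lt_of_lt_of_le hd0 hd
    have h3 := card_le_of hP hprod
    have h4 : (P.card : ℝ) ≤ 7 * q := by exact_mod_cast h3
    have h5 : (0 : ℝ) ≤ (1 + (c : ℝ)) / d := by positivity
    have h6 : (P.card : ℝ) * FB d B + FB d B ≤ (7 * q + 1) * ((1 + (c : ℝ)) / d) := by
      have h7 : (P.card : ℝ) * FB d B ≤ (7 * q) * ((1 + (c : ℝ)) / d) := by
        calc (P.card : ℝ) * FB d B ≤ P.card * ((1 + (c : ℝ)) / d) := mul_le_mul_of_nonneg_left hF (Nat.cast_nonneg _)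
          _ ≤ _ := mul_le_mul_of_nonneg_right h4 h5
      linarith
    refine lt_of_le_of_lt h6 ?_
    rw [← mul_div_assoc, div_lt_one hdR]
    have h8 := lt_of_lt_of_le (poly hq3) hd
    have h9 : (((7 * q + 1) * (1 + c) : ℕ) : ℝ) < d := by
      rw [hc]
      exact_mod_cast h8
    push_cast at h9
    exact h9

end Cfsg.Agent.H378.RC
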